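import Mathlib
import Cfsg.Agent.Lib.Frobenius.Basic

/-!
# The partition of a Frobenius group: every element outside the kernel is uniquely `u h u⁻¹`
-/

set_option autoImplicit false
set_option linter.style.haveILetI false

namespace Cfsg.Agent.Lib.Frobenius.Partition

open Cfsg

variable {G : Type*} [Group G] {K H : Subgroup G}

theorem eq_one_of_mem_of_mem (hc : K.IsComplement' H) {x : G} (hK : x ∈ K) (hH : x ∈ H) : x = 1 :=
  Subgroup.disjoint_def.mp hc.disjoint hK hH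

theorem conj_not_mem [hn : K.Normal] (hc : K.IsComplement' H) (p : K × {h : H // h ≠ 1}) :
    (p.1 : G) * ((p.2 : H) : G) * (p.1 : G)⁻¹ ∉ K := by
  intro hmem
  have h1 : ((p.2 : H) : G) ∈ K := by
    have h2 : (p.1 : G)⁻¹ * ((p.1 : G) * ((p.2 : H) : G) * (p.1 : G)⁻¹) * (p.1 : G)
        = ((p.2 : H) : G) := by group
    rw [← h2]
    have h3 := hn.conj_mem _ hmem (p.1 : G)⁻¹
    simpa using h3
  exact p.2.2 (Subtype.ext (eq_one_of_mem_of_mem hc h1 (p.2 : H).2))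

/-- The conjugation map. -/
def conjMap [K.Normal] (hc : K.IsComplement' H) (p : K × {h : H // h ≠ 1}) : {x : G // x ∉ K} :=
  ⟨(p.1 : G) * ((p.2 : H) : G) * (p.1 : G)⁻¹, conj_not_mem hc p⟩

variable [Finite G]

/-- The conjugation map `K × (H \ 1) → G \ K` is bijective. -/
theorem conjMap_bijective [hn : K.Normal] (hc : K.IsComplement' H)
    (hfpf : ∀ h ∈ H, h ≠ 1 → ∀ k ∈ K, h * k = k * h → k = 1) :
    Function.Bijective (conjMap hc) := by
  classical
  have hinj : ∀ (u : G) (h h' : G), u ∈ K → h ∈ H → h' ∈ H → h ≠ 1 → u * h * u⁻¹ = h' → u = 1 ∧ h = h' := by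
    intro u h h' hu hh hh' hh1 he
    have h1 : h' * h⁻¹ ∈ K := by
      rw [← he]
      have : u * h * u⁻¹ * h⁻¹ = u * (h * u⁻¹ * h⁻¹) := by group
      rw [this]
      exact K.mul_mem hu (hn.conj_mem _ (K.inv_mem hu) h)
    have h2 : h' * h⁻¹ = 1 := eq_one_of_mem_of_mem hc h1 (H.mul_mem hh' (H.inv_mem hh))
    have h3 : h' = h := mul_inv_eq_one.mp h2
    refine ⟨?_, h3.symm⟩
    apply hfpf h hh hh1 u hu
    rw [h3] at he
    calc h * u = (u * h * u⁻¹) * u := by rw [he]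
      _ = u * h := by group
  have hI : Function.Injective (conjMap hc) := by
    rintro ⟨u, h⟩ ⟨v, w⟩ he
    have he' : (u : G) * ((h : H) : G) * (u : G)⁻¹ = (v : G) * ((w : H) : G) * (v : G)⁻¹ :=
      congrArg Subtype.val he
    have h0 : ((v : G)⁻¹ * u) * ((h : H) : G) * ((v : G)⁻¹ * u)⁻¹ = ((w : H) : G) := by
      calc ((v : G)⁻¹ * u) * ((h : H) : G) * ((v : G)⁻¹ * u)⁻¹
          = (v : G)⁻¹ * ((u : G) * ((h : H) : G) * (u : G)⁻¹) * v := by group
        _ = (v : G)⁻¹ * ((v : G) * ((w : H) : G) * (v : G)⁻¹) * v := by rw [he']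
        _ = _ := by group
    obtain ⟨h1, h2⟩ := hinj _ _ _ (K.mul_mem (K.inv_mem v.2) u.2) (h : H).2 (w : H).2
      (fun h0 => h.2 (Subtype.ext h0)) h0
    have h3 : (u : G) = v := (inv_mul_eq_one.mp h1).symm
    apply Prod.ext
    · exact Subtype.ext h3
    · exact Subtype.ext (Subtype.ext h2)
  refine ⟨hI, ?_⟩
  have hcard : Nat.card {x : G // x ∉ K} ≤ Nat.card (K × {h : H // h ≠ 1}) := by
    have h1 : Nat.card G = Nat.card K * Nat.card H := hc.card_mul_card.symm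
    have h2 : Nat.card {x : G // x ∈ K} + Nat.card {x : G // x ∉ K} = Nat.card G := by
      rw [← Nat.card_sum]
      exact Nat.card_congr (Equiv.sumCompl (fun x : G => x ∈ K))
    have h3 : Nat.card {x : G // x ∈ K} = Nat.card K := rfl
    have h4 : Nat.card {h : H // h = 1} + Nat.card {h : H // ¬ h = 1} = Nat.card H := by
      rw [← Nat.card_sum]
      exact Nat.card_congr (Equiv.sumCompl (fun h : H => h = 1))
    have h5 : Nat.card {h : H // h = 1} = 1 := Nat.card_unique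
    have h6 : Nat.card (K × {h : H // h ≠ 1}) = Nat.card K * Nat.card {h : H // ¬ h = 1} :=
      Nat.card_prod _ _
    rw [h6]
    rw [h1, ← h3, ← h4, h5, mul_add, mul_one] at h2
    omega
  exact (Function.Injective.bijective_of_nat_card_le hI hcard).2

/-- The partition as an equivalence. -/
noncomputable def partEquiv [K.Normal] (hc : K.IsComplement' H)
    (hfpf : ∀ h ∈ H, h ≠ 1 → ∀ k ∈ K, h * k = k * h → k = 1) :
    K × {h : H // h ≠ 1} ≃ {x : G // x ∉ K} :=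
  Equiv.ofBijective _ (conjMap_bijective hc hfpf)

theorem partEquiv_apply [K.Normal] (hc : K.IsComplement' H)
    (hfpf : ∀ h ∈ H, h ≠ 1 → ∀ k ∈ K, h * k = k * h → k = 1) (p : K × {h : H // h ≠ 1}) :
    ((partEquiv hc hfpf p : {x : G // x ∉ K}) : G) = (p.1 : G) * ((p.2 : H) : G) * (p.1 : G)⁻¹ := rfl

/-- Every element outside `K` is conjugate by an element of `K` to a nonidentity element of `H`. -/
theorem exists_conj_of_not_mem [K.Normal] (hc : K.IsComplement' H)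
    (hfpf : ∀ h ∈ H, h ≠ 1 → ∀ k ∈ K, h * k = k * h → k = 1) {x : G} (hx : x ∉ K) :
    ∃ u ∈ K, ∃ h ∈ H, h ≠ 1 ∧ x = u * h * u⁻¹ := by
  obtain ⟨⟨u, h⟩, hp⟩ := (conjMap_bijective hc hfpf).2 ⟨x, hx⟩
  refine ⟨u, u.2, h, (h : H).2, fun h0 => h.2 (Subtype.ext h0), ?_⟩
  exact (congrArg Subtype.val hp).symm

/-- An element commuting with a nonidentity element of `K` lies in `K`. -/
theorem mem_of_commute_kernel [hn : K.Normal] (hc : K.IsComplement' H)
    (hfpf : ∀ h ∈ H, h ≠ 1 → ∀ k ∈ K, h * k = k * h → k = 1) {k y : G} (hk : k ∈ K) (hk1 : k ≠ 1)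
    (hc' : y * k = k * y) : y ∈ K := by
  by_contra hy
  obtain ⟨u, hu, h, hh, hh1, rfl⟩ := exists_conj_of_not_mem hc hfpf hy
  apply hk1
  have h1 : u⁻¹ * k * u ∈ K := by
    have := hn.conj_mem _ hk u⁻¹
    simpa using this
  have h2 := hfpf h hh hh1 _ h1 (by
    calc h * (u⁻¹ * k * u) = u⁻¹ * ((u * h * u⁻¹) * k) * u := by group
      _ = u⁻¹ * (k * (u * h * u⁻¹)) * u := by rw [hc']
      _ = _ := by group)
  have h3 : k = u * (u⁻¹ * k * u) * u⁻¹ := by group
  rw [h3, h2]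
  group

/-- An element commuting with a nonidentity element of `H` lies in `H`. -/
theorem mem_of_commute_complement [hn : K.Normal] (hc : K.IsComplement' H)
    (hfpf : ∀ h ∈ H, h ≠ 1 → ∀ k ∈ K, h * k = k * h → k = 1) {h y : G} (hh : h ∈ H) (hh1 : h ≠ 1)
    (hcomm : y * h = h * y) : y ∈ H := by
  obtain ⟨⟨k, h'⟩, hy⟩ := hc.2 y
  have hy' : (k : G) * (h' : G) = y := hy
  subst hy'
  -- `[h', h] ∈ K ∩ H`
  have h1 : (k : G) * ((h' : G) * h * (h' : G)⁻¹ * h⁻¹) = h * k * h⁻¹ := by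
    calc (k : G) * ((h' : G) * h * (h' : G)⁻¹ * h⁻¹) = ((k : G) * h') * h * (h' : G)⁻¹ * h⁻¹ := by
          group
      _ = h * ((k : G) * h') * (h' : G)⁻¹ * h⁻¹ := by rw [hcomm]
      _ = _ := by group
  have h2 : (h' : G) * h * (h' : G)⁻¹ * h⁻¹ ∈ K := by
    have h3 : (h' : G) * h * (h' : G)⁻¹ * h⁻¹ = (k : G)⁻¹ * (h * k * h⁻¹) := by
      rw [← h1]
      group
    rw [h3]
    exact K.mul_mem (K.inv_mem k.2) (hn.conj_mem _ k.2 h)
  have h4 : (h' : G) * h * (h' : G)⁻¹ * h⁻¹ = 1 :=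
    eq_one_of_mem_of_mem hc h2 (H.mul_mem (H.mul_mem (H.mul_mem h'.2 hh) (H.inv_mem h'.2))
      (H.inv_mem hh))
  rw [h4, mul_one] at h1
  have h5 : (k : G) = 1 := by
    apply hfpf h hh hh1 k k.2
    calc h * (k : G) = (h * k * h⁻¹) * h := by group
      _ = _ := by rw [← h1]
  rw [h5, one_mul]
  exact h'.2

end Cfsg.Agent.Lib.Frobenius.Partition
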