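import Mathlib
import Cfsg.Agent.Lib.Frobenius.Partition
import Cfsg.Agent.Lib.Char.FrobeniusKernel

/-!
# Frobenius groups acting on abelian groups: the complement has fixed points
-/

set_option autoImplicit false
set_option linter.style.haveILetI false

namespace Cfsg.Agent.Lib.Frobenius.FixedPoint

open Cfsg Cfsg.Agent.Lib.Frobenius.Partition

/-- If `N` and `H` both act without nontrivial fixed points on the abelian group `V`, then `V` has
exponent dividing `|N|`. -/
theorem pow_card_kernel_eq_one {F V : Type*} [Group F] [Finite F] [CommGroup V]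
    [MulDistribMulAction F V] {N H : Subgroup F} [N.Normal] (hc : N.IsComplement' H)
    (hfpf : ∀ h ∈ H, h ≠ 1 → ∀ k ∈ N, h * k = k * h → k = 1)
    (hN : ∀ v : V, (∀ u ∈ N, u • v = v) → v = 1) (hH : ∀ v : V, (∀ h ∈ H, h • v = v) → v = 1)
    (v : V) : v ^ Nat.card N = 1 := by
  classical
  haveI := Fintype.ofFinite F
  letI : Fintype N := Subtype.fintype (· ∈ N)
  haveI := Fintype.ofFinite H
  let act : F → V →* V := fun a => MulDistribMulAction.toMonoidHom V a
  have hact : ∀ a w, act a w = a • w := fun _ _ => rfl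
  have hσN : ∀ w : V, ∏ u : N, (u : F) • w = 1 := by
    intro w
    apply hN
    intro u₀ hu₀
    rw [← hact, map_prod]
    simp only [hact, smul_smul]
    exact Fintype.prod_equiv (Equiv.mulLeft (⟨u₀, hu₀⟩ : N)) _ _ (fun u => rfl)
  have hσH : ∀ w : V, ∏ h : H, (h : F) • w = 1 := by
    intro w
    apply hH
    intro u₀ hu₀
    rw [← hact, map_prod]
    simp only [hact, smul_smul]
    exact Fintype.prod_equiv (Equiv.mulLeft (⟨u₀, hu₀⟩ : H)) _ _ (fun u => rfl)
  -- first computation of the total product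
  have h1 : ∏ x : F, x • v = 1 := by
    let e : N × H ≃ F := Equiv.ofBijective _ hc
    rw [← Equiv.prod_comp e, Fintype.prod_prod_type]
    have : ∀ (u : N) (h : H), e (u, h) • v = (u : F) • ((h : F) • v) := by
      intro u h
      show ((u : F) * (h : F)) • v = _
      rw [mul_smul]
    simp only [this]
    apply Finset.prod_eq_one
    intro u _
    have h0 : ∏ x : H, (u : F) • ((x : F) • v) = act u (∏ x : H, (x : F) • v) := by
      rw [map_prod]
      rfl
    rw [h0, hσH, map_one]
  -- second computation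
  have h2 : ∀ (u : N), ∏ h : {h : H // h ≠ 1}, (((u : F) * ((h : H) : F) * (u : F)⁻¹) • v) = v⁻¹ := by
    intro u
    set w := (u : F)⁻¹ • v with hw
    have h3 : ∏ h : H, (h : F) • w = w * ∏ h : {h : H // h ≠ 1}, ((h : H) : F) • w := by
      have := Fintype.prod_eq_mul_prod_subtype_ne (fun h : H => (h : F) • w) (1 : H)
      rw [this]
      simp
    have h4 : ∏ h : {h : H // h ≠ 1}, ((h : H) : F) • w = w⁻¹ := by
      rw [eq_inv_iff_mul_eq_one, mul_comm, ← h3, hσH]
    have h5 : ∀ h : {h : H // h ≠ 1}, (((u : F) * ((h : H) : F) * (u : F)⁻¹) • v)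
        = act u (((h : H) : F) • w) := by
      intro h
      rw [hact, hw, mul_smul, mul_smul]
    simp only [h5]
    rw [← map_prod, h4, map_inv, hact, hw, smul_inv_smul]
  have h3 : ∏ x : F, x • v = (∏ x : {x : F // x ∈ N}, (x : F) • v) *
      ∏ x : {x : F // x ∉ N}, (x : F) • v :=
    (Fintype.prod_subtype_mul_prod_subtype (· ∈ N) (fun x : F => x • v)).symm
  have h4 : ∏ x : {x : F // x ∈ N}, (x : F) • v = 1 := hσN v
  have h5 : ∏ x : {x : F // x ∉ N}, (x : F) • v = (v⁻¹) ^ Nat.card N := by
    rw [← Equiv.prod_comp (partEquiv hc hfpf), Fintype.prod_prod_type]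
    have : ∀ (u : N) (h : {h : H // h ≠ 1}),
        ((partEquiv hc hfpf (u, h) : {x : F // x ∉ N}) : F) • v
          = (((u : F) * ((h : H) : F) * (u : F)⁻¹) • v) := fun _ _ => rfl
    simp only [this, h2, Finset.prod_const, Finset.card_univ, Nat.card_eq_fintype_card]
  rw [h1, h4, one_mul, h5, inv_pow] at h3
  exact inv_eq_one.mp h3.symm

variable {G : Type*} [Group G] [Finite G]

end Cfsg.Agent.Lib.Frobenius.FixedPoint
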