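import Mathlib
import Cfsg.Agent.Lib.Frobenius.FixedPoint

/-!
# Norm computations for a Frobenius group acting on an abelian group
-/

set_option autoImplicit false
set_option linter.style.haveILetI false

namespace Cfsg.Agent.Lib.Frobenius.NormFixed

open Cfsg Cfsg.Agent.Lib.Frobenius.Partition

/-- If the norms of `N` and of `H` vanish on the invariant subgroup `W` of the abelian group `V`,
then `W` has exponent dividing `|N|`. -/
theorem pow_card_of_norm {F V : Type*} [Group F] [Finite F] [CommGroup V]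
    [MulDistribMulAction F V] {N H : Subgroup F} [N.Normal] (hc : N.IsComplement' H)
    (hfpf : ∀ h ∈ H, h ≠ 1 → ∀ k ∈ N, h * k = k * h → k = 1)
    (W : Subgroup V) (hW : ∀ (x : F), ∀ w ∈ W, x • w ∈ W)
    [Fintype N] [Fintype H]
    (hσN : ∀ w ∈ W, ∏ u : N, (u : F) • w = 1) (hσH : ∀ w ∈ W, ∏ h : H, (h : F) • w = 1)
    (v : V) (hv : v ∈ W) : v ^ Nat.card N = 1 := by
  classical
  haveI := Fintype.ofFinite F
  let act : F → V →* V := fun a => MulDistribMulAction.toMonoidHom V a
  have hact : ∀ a w, act a w = a • w := fun _ _ => rfl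
  -- first computation of the total product
  have h1 : ∏ x : F, x • v = 1 := by
    let e : N × H ≃ F := Equiv.ofBijective _ hc
    rw [← Equiv.prod_comp e, Fintype.prod_prod_type]
    have : ∀ (u : N) (h : H), e (u, h) • v = (u : F) • ((h : F) • v) := by
      intro u h
      show ((u : F) * (h : F)) • v = _
      rw [mul_smul]
    simp only [this]
    apply Finset.prod_eq_one
    intro u _
    have h0 : ∏ x : H, (u : F) • ((x : F) • v) = act u (∏ x : H, (x : F) • v) := by
      rw [map_prod]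
      rfl
    rw [h0, hσH v hv, map_one]
  -- second computation
  have h2 : ∀ (u : N), ∏ h : {h : H // h ≠ 1}, (((u : F) * ((h : H) : F) * (u : F)⁻¹) • v) = v⁻¹ := by
    intro u
    set w := (u : F)⁻¹ • v with hw
    have hwW : w ∈ W := hW _ _ hv
    have h3 : ∏ h : H, (h : F) • w = w * ∏ h : {h : H // h ≠ 1}, ((h : H) : F) • w := by
      have := Fintype.prod_eq_mul_prod_subtype_ne (fun h : H => (h : F) • w) (1 : H)
      rw [this]
      simp
    have h4 : ∏ h : {h : H // h ≠ 1}, ((h : H) : F) • w = w⁻¹ := by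
      rw [eq_inv_iff_mul_eq_one, mul_comm, ← h3, hσH w hwW]
    have h5 : ∀ h : {h : H // h ≠ 1}, (((u : F) * ((h : H) : F) * (u : F)⁻¹) • v)
        = act u (((h : H) : F) • w) := by
      intro h
      rw [hact, hw, mul_smul, mul_smul]
    simp only [h5]
    rw [← map_prod, h4, map_inv, hact, hw, smul_inv_smul]
  have h3 : ∏ x : F, x • v = (∏ x : {x : F // x ∈ N}, (x : F) • v) *
      ∏ x : {x : F // x ∉ N}, (x : F) • v := by
    convert (Fintype.prod_subtype_mul_prod_subtype (· ∈ N) (fun x : F => x • v)).symm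
  have h4 : ∏ x : {x : F // x ∈ N}, (x : F) • v = 1 := by
    have := hσN v hv
    convert this
  have h5 : ∏ x : {x : F // x ∉ N}, (x : F) • v = (v⁻¹) ^ Nat.card N := by
    rw [← Equiv.prod_comp (partEquiv hc hfpf), Fintype.prod_prod_type]
    have : ∀ (u : N) (h : {h : H // h ≠ 1}),
        ((partEquiv hc hfpf (u, h) : {x : F // x ∉ N}) : F) • v
          = (((u : F) * ((h : H) : F) * (u : F)⁻¹) • v) := fun _ _ => rfl
    simp only [this, h2, Finset.prod_const, Finset.card_univ, Nat.card_eq_fintype_card]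
  rw [h1, h4, one_mul, h5, inv_pow] at h3
  exact inv_eq_one.mp h3.symm

/-- A Frobenius group `F = N ⋊ H` acting on an abelian group `V` of exponent prime to `|N|`,
with `N` acting non-trivially: the norm of `H` does not vanish. -/
theorem exists_norm_ne_one {F V : Type*} [Group F] [Finite F] [CommGroup V]
    [MulDistribMulAction F V] {N H : Subgroup F} [N.Normal] (hc : N.IsComplement' H)
    (hfpf : ∀ h ∈ H, h ≠ 1 → ∀ k ∈ N, h * k = k * h → k = 1)
    (e : ℕ) (he : ∀ v : V, v ^ e = 1) (hcop : (Nat.card N).Coprime e)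
    (u₀ : F) (hu₀ : u₀ ∈ N) (v₀ : V) (hne : u₀ • v₀ ≠ v₀) [Fintype N] [Fintype H] :
    ∃ w : V, ∏ h : H, (h : F) • w ≠ 1 := by
  classical
  by_contra hcon
  push Not at hcon
  let act : F → V →* V := fun a => MulDistribMulAction.toMonoidHom V a
  have hact : ∀ a w, act a w = a • w := fun _ _ => rfl
  let σ : V →* V :=
    { toFun := fun w => ∏ u : N, (u : F) • w
      map_one' := by simp
      map_mul' := fun a b => by simp [smul_mul', Finset.prod_mul_distrib] }
  have hσ : ∀ w, σ w = ∏ u : N, (u : F) • w := fun _ => rfl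
  let W : Subgroup V := σ.ker
  have hW : ∀ (x : F), ∀ w ∈ W, x • w ∈ W := by
    intro x w hw
    have hw' : ∏ u : N, (u : F) • w = 1 := hw
    show ∏ u : N, (u : F) • (x • w) = 1
    have h1 : ∀ u : N, (u : F) • (x • w) = x • ((((MulAut.conjNormal (x⁻¹ : F)) u : N) : F) • w) := by
      intro u
      rw [← mul_smul, ← mul_smul]
      congr 1
      simp [mul_assoc]
    simp only [h1]
    have h2 : ∏ u : N, x • ((((MulAut.conjNormal (x⁻¹ : F)) u : N) : F) • w)
        = act x (∏ u : N, (((MulAut.conjNormal (x⁻¹ : F)) u : N) : F) • w) := by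
      rw [map_prod]; rfl
    rw [h2]
    have h3 : ∏ u : N, (((MulAut.conjNormal (x⁻¹ : F)) u : N) : F) • w = ∏ u : N, (u : F) • w :=
      Fintype.prod_equiv (MulAut.conjNormal (x⁻¹ : F)).toEquiv _ _ (fun _ => rfl)
    rw [h3, hw', map_one]
  have hW1 : ∀ w ∈ W, w = 1 := by
    intro w hw
    have h1 : w ^ Nat.card N = 1 := pow_card_of_norm hc hfpf W hW (fun w hw => hw) (fun w _ => hcon w) w hw
    have h2 := he w
    have : w ^ Nat.gcd (Nat.card N) e = 1 := pow_gcd_eq_one.mpr ⟨h1, h2⟩
    rwa [hcop.gcd_eq_one, pow_one] at this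
  apply hne
  have hmem : (u₀ • v₀) * v₀⁻¹ ∈ W := by
    show ∏ u : N, (u : F) • ((u₀ • v₀) * v₀⁻¹) = 1
    simp only [smul_mul', smul_inv', Finset.prod_mul_distrib, Finset.prod_inv_distrib, smul_smul]
    rw [mul_inv_eq_one]
    exact Fintype.prod_equiv (Equiv.mulRight (⟨u₀, hu₀⟩ : N)) _ _ (fun _ => rfl)
  have := hW1 _ hmem
  exact mul_inv_eq_one.mp this

end Cfsg.Agent.Lib.Frobenius.NormFixed
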