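import Mathlib
import Cfsg.Agent.Lib.Frobenius.NormFixed
import Cfsg.Agent.Lib.Coprime.FrattiniAct
import Cfsg.Agent.Lib.PGroup.Regular

set_option autoImplicit false
set_option linter.style.haveILetI false

namespace Cfsg.Agent.Lib.Frobenius.NormFixed

open Subgroup

/-- Conjugation by elements of `E ≤ N_G(S)` on the abelianization of `S`. -/
noncomputable def abelAct {G : Type*} [Group G] {S E : Subgroup G}
    (hES : E ≤ normalizer (S : Set G)) : E →* MulAut (Abelianization S) where
  toFun e := (S.normalizerMonoidHom (Subgroup.inclusion hES e)).abelianizationCongr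
  map_one' := by
    ext x
    induction x using QuotientGroup.induction_on with
    | H x => simp; rfl
  map_mul' a b := by
    ext x
    induction x using QuotientGroup.induction_on with
    | H x => simp; rfl

theorem abelAct_of {G : Type*} [Group G] {S E : Subgroup G}
    (hES : E ≤ normalizer (S : Set G)) (e : E) (x : S) :
    abelAct hES e (Abelianization.of x)
      = Abelianization.of ⟨(e : G) * x * (e : G)⁻¹, (hES e.2 x).mp x.2⟩ := rfl

/-- The key point of the Mazurov lemma: if `T ⋊ ⟨g⟩` is a Frobenius group acting on the `s`-group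
`S` with `T` of order prime to `s` and acting non-trivially on `S`, then there is an element
in the coset `S g` whose order is strictly larger than that of `g`. -/
theorem exists_mul_pow_ne_one {G : Type*} [Group G] [Finite G] {s : ℕ} [Fact s.Prime]
    {S T : Subgroup G} {g : G} (hS : IsPGroup s S) (hTS : T ≤ normalizer (S : Set G))
    (hgS : g ∈ normalizer (S : Set G)) (hgT : g ∈ normalizer (T : Set G))
    (hcop : (Nat.card T).Coprime s)
    (hfpf : ∀ h ∈ zpowers g, h ≠ 1 → ∀ τ ∈ T, h * τ = τ * h → τ = 1)
    (hdisj : T ⊓ zpowers g = ⊥) (hne : ¬ T ≤ centralizer (S : Set G)) :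
    ∃ x ∈ S, (x * g) ^ orderOf g ≠ 1 := by
  classical
  set H : Subgroup G := zpowers g with hH
  set E : Subgroup G := T ⊔ H with hE
  have hHT : H ≤ normalizer (T : Set G) := zpowers_le.mpr hgT
  have hES : E ≤ normalizer (S : Set G) := sup_le hTS (zpowers_le.mpr hgS)
  have hET : E ≤ normalizer (T : Set G) := sup_le le_normalizer hHT
  have hTE : T ≤ E := le_sup_left
  have hHE : H ≤ E := le_sup_right
  let N' : Subgroup E := T.subgroupOf E
  let H' : Subgroup E := H.subgroupOf E
  haveI hN' : N'.Normal := normal_subgroupOf_of_le_normalizer hET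
  have hc : N'.IsComplement' H' := by
    apply isComplement'_of_disjoint_and_mul_eq_univ
    · rw [Subgroup.disjoint_def]
      intro x hx hx'
      have h1 : (x : G) ∈ T ⊓ H := ⟨hx, hx'⟩
      rw [hdisj] at h1
      exact Subtype.ext ((Subgroup.mem_bot).mp h1)
    · rw [Set.eq_univ_iff_forall]
      intro x
      have h1 : (x : G) ∈ ((T ⊔ H : Subgroup G) : Set G) := x.2
      rw [coe_mul_of_right_le_normalizer_left T H hHT] at h1
      obtain ⟨a, ha, b, hb, hab⟩ := h1
      refine ⟨⟨a, hTE ha⟩, ha, ⟨b, hHE hb⟩, hb, Subtype.ext hab⟩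
  have hfpf' : ∀ h ∈ H', h ≠ 1 → ∀ k ∈ N', h * k = k * h → k = 1 := by
    intro h hh hh1 k hk hk'
    apply Subtype.ext
    refine hfpf (h : G) hh ?_ (k : G) hk ?_
    · intro h2; exact hh1 (Subtype.ext h2)
    · exact congrArg Subtype.val hk'
  letI : MulDistribMulAction E (Abelianization S) :=
    MulDistribMulAction.compHom _ (abelAct hES)
  have hsmul : ∀ (e : E) (x : S), e • Abelianization.of x
      = Abelianization.of ⟨(e : G) * x * (e : G)⁻¹, (hES e.2 x).mp x.2⟩ := fun _ _ => rfl
  -- exponent
  have hexp : ∀ v : Abelianization S, v ^ Nat.card S = 1 := by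
    intro v
    induction v using QuotientGroup.induction_on with
    | H x =>
      show (Abelianization.of x) ^ Nat.card S = 1
      rw [← map_pow, pow_card_eq_one', map_one]
  have hcop' : (Nat.card N').Coprime (Nat.card S) := by
    have h1 : Nat.card N' = Nat.card T :=
      Nat.card_congr (Subgroup.subgroupOfEquivOfLe hTE).toEquiv
    rw [h1]
    obtain ⟨k, hk⟩ := IsPGroup.iff_card.mp hS
    rw [hk]
    exact Nat.Coprime.pow_right k hcop
  -- non-trivial action
  have hnon : ∃ τ : E, τ ∈ N' ∧ ∃ v : Abelianization S, τ • v ≠ v := by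
    by_contra hcon
    push Not at hcon
    apply hne
    refine Cfsg.Agent.Lib.Coprime.FrattiniAct.le_centralizer_of_frattini hS hTS hcop ?_
    intro t ht a ha
    have h1 := hcon ⟨a, hTE ha⟩ ha (Abelianization.of ⟨t, ht⟩)
    rw [hsmul] at h1
    have h2 := QuotientGroup.eq.mp h1.symm
    have h3 : (⟨t, ht⟩ : S)⁻¹ * ⟨a * t * a⁻¹, (hES (hTE ha) t).mp ht⟩ ∈ frattini S :=
      Cfsg.Agent.Lib.PGroup.Regular.commutator_le_frattini_of_isPGroup hS h2
    exact ⟨_, h3, rfl⟩
  obtain ⟨τ, hτ, v, hv⟩ := hnon
  letI : Fintype N' := Fintype.ofFinite _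
  letI : Fintype H' := Fintype.ofFinite _
  obtain ⟨w, hw⟩ := exists_norm_ne_one hc hfpf' (Nat.card S) hexp hcop' τ hτ v hv
  induction w using QuotientGroup.induction_on with
  | H x =>
    refine ⟨x, x.2, ?_⟩
    intro hx1
    apply hw
    -- product formula
    have hgE : g ∈ E := hHE (mem_zpowers g)
    let g' : E := ⟨g, hgE⟩
    have key : ∀ n : ℕ, ∃ y : S, ((y : S) : G) = (((x : S) : G) * g) ^ n * (g ^ n)⁻¹ ∧
        Abelianization.of y = ∏ i ∈ Finset.range n, g' ^ i • Abelianization.of x := by
      intro n
      induction n with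
      | zero => exact ⟨1, by simp, by simp⟩
      | succ n ih =>
        obtain ⟨y, hy, hy'⟩ := ih
        have hz : (g' ^ n • Abelianization.of x : Abelianization S)
            = Abelianization.of ⟨g ^ n * x * (g ^ n)⁻¹, by
                have := ((g' ^ n : E).2 : ((g' ^ n : E) : G) ∈ E)
                have h2 := (hES this x).mp x.2
                simpa [g'] using h2⟩ := by
          rw [hsmul]
          congr 1
        refine ⟨y * ⟨g ^ n * x * (g ^ n)⁻¹, by
                have := ((g' ^ n : E).2 : ((g' ^ n : E) : G) ∈ E)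
                have h2 := (hES this x).mp x.2
                simpa [g'] using h2⟩, ?_, ?_⟩
        · show (y : G) * (g ^ n * x * (g ^ n)⁻¹) = _
          rw [hy, pow_succ ((x : G) * g), pow_succ g]
          group
        · rw [map_mul, hy', Finset.prod_range_succ, hz]
    obtain ⟨y, hy, hy'⟩ := key (orderOf g)
    have hy1 : y = 1 := by
      apply Subtype.ext
      rw [hy, hx1, pow_orderOf_eq_one]
      simp
    rw [hy1, map_one] at hy'
    -- reindex
    have hg0 : IsOfFinOrder g := isOfFinOrder_of_finite g
    let e1 : Fin (orderOf g) ≃ H' :=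
      (finEquivZPowers hg0).trans (Subgroup.subgroupOfEquivOfLe hHE).symm.toEquiv
    have he1 : ∀ i : Fin (orderOf g), ((e1 i : H') : E) = g' ^ (i : ℕ) := by
      intro i
      apply Subtype.ext
      have : (((e1 i : H') : E) : G) = g ^ (i : ℕ) := by
        show ((((Subgroup.subgroupOfEquivOfLe hHE).symm (finEquivZPowers hg0 i)) : E) : G) = _
        rw [Subgroup.subgroupOfEquivOfLe_symm_apply_coe_coe]
        rfl
      rw [this]
      simp [g']
    rw [← Equiv.prod_comp e1]
    simp only [he1]
    have h9 := Fin.prod_univ_eq_prod_range (fun i => g' ^ i • (Abelianization.of x : Abelianization S)) (orderOf g)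
    exact h9.trans hy'.symm

end Cfsg.Agent.Lib.Frobenius.NormFixed
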